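import Mathlib
import Cfsg.Agent.Nodes.RGDFoldSL

/-!
# Elements of order three of `SL(2, q)`, `q ≡ 1 mod 3`, are diagonalisable (helper442)

* `trace_of_cube` : `A ^ 3 = 1`, `A ≠ 1` gives `tr A = -1`;
* `exists_omega` : `3 ∣ q - 1` gives a primitive cube root of unity;
* `exists_conj_hS` : `A ^ 3 = 1`, `A ≠ 1` is conjugate to `hS d`, `d ^ 3 = 1`, `d ≠ 1`;
* `exists_conj_hS'` : the same with a given `d`.
-/

set_option autoImplicit false
set_option linter.unusedSectionVars false
set_option linter.unusedVariables false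
set_option maxHeartbeats 400000

namespace Cfsg.Agent.H442.TD.Diag3

open Cfsg.Agent.Nodes.RGDFoldSL
open Matrix (SpecialLinearGroup)

variable {F : Type*} [Field F]

theorem trace_of_cube {A : SpecialLinearGroup (Fin 2) F} (hA : A ^ 3 = 1) (h1 : A ≠ 1) :
    A.1 0 0 + A.1 1 1 = -1 := by
  have hdet : A.1 0 0 * A.1 1 1 - A.1 0 1 * A.1 1 0 = 1 := by
    rw [← Matrix.det_fin_two]; exact A.2
  have h3 : A.1 * A.1 * A.1 = 1 := by
    have := congrArg Subtype.val hA
    rw [pow_three'] at this
    exact this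
  set a := A.1 0 0 with ha
  set b := A.1 0 1 with hb
  set c := A.1 1 0 with hc
  set d := A.1 1 1 with hd
  have e00 : (a * a + b * c) * a + (a * b + b * d) * c = 1 := by
    have := congrFun (congrFun h3 0) 0
    simpa [Matrix.mul_apply, Fin.sum_univ_two] using this
  have e01 : (a * a + b * c) * b + (a * b + b * d) * d = 0 := by
    have := congrFun (congrFun h3 0) 1
    simpa [Matrix.mul_apply, Fin.sum_univ_two] using this
  have e10 : (c * a + d * c) * a + (c * b + d * d) * c = 0 := by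
    have := congrFun (congrFun h3 1) 0
    simpa [Matrix.mul_apply, Fin.sum_univ_two] using this
  have e11 : (c * a + d * c) * b + (c * b + d * d) * d = 1 := by
    have := congrFun (congrFun h3 1) 1
    simpa [Matrix.mul_apply, Fin.sum_univ_two] using this
  -- (t² - 1) A = 1 + t
  have f00 : ((a + d) ^ 2 - 1) * a = 1 + (a + d) := by linear_combination e00 + (2 * a + d) * hdet
  have f01 : ((a + d) ^ 2 - 1) * b = 0 := by linear_combination e01 + b * hdet
  have f10 : ((a + d) ^ 2 - 1) * c = 0 := by linear_combination e10 + c * hdet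
  have f11 : ((a + d) ^ 2 - 1) * d = 1 + (a + d) := by linear_combination e11 + (2 * d + a) * hdet
  by_cases ht : (a + d) ^ 2 - 1 = 0
  · rw [ht, zero_mul] at f00
    linear_combination -f00
  · exfalso
    have hb0 : b = 0 := by rcases mul_eq_zero.1 f01 with h | h; exact absurd h ht; exact h
    have hc0 : c = 0 := by rcases mul_eq_zero.1 f10 with h | h; exact absurd h ht; exact h
    have had : a = d := mul_left_cancel₀ ht (by rw [f00, f11])
    rw [hb0, hc0, had] at e00 hdet
    have h2 : d * d = 1 := by linear_combination hdet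
    have h4 : d = 1 := by linear_combination e00 - d * h2
    apply h1
    apply Subtype.ext
    apply Matrix.ext
    intro i j
    have a1 : A.1 0 0 = 1 := by rw [← ha, had, h4]
    have a2 : A.1 0 1 = 0 := by rw [← hb, hb0]
    have a3 : A.1 1 0 = 0 := by rw [← hc, hc0]
    have a4 : A.1 1 1 = 1 := by rw [← hd, h4]
    fin_cases i <;> fin_cases j
    · exact a1
    · exact a2
    · exact a3
    · exact a4

/-- With a cube root of unity `d ≠ 1` in `F`, `3 ≠ 0`. -/
theorem exists_conj_hS' {A : SpecialLinearGroup (Fin 2) F} (hA : A ^ 3 = 1) (h1 : A ≠ 1) {w : F}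
    (hw : w ^ 3 = 1) (hw1 : w ≠ 1) (h3 : (3 : F) ≠ 0) : ∃ (g : SpecialLinearGroup (Fin 2) F) (d : F),
      g * A * g⁻¹ = hS d ∧ d ^ 3 = 1 ∧ d ≠ 1 := by
  have htr := trace_of_cube hA h1
  have hdet : A.1 0 0 * A.1 1 1 - A.1 0 1 * A.1 1 0 = 1 := by
    rw [← Matrix.det_fin_two]; exact A.2
  set a := A.1 0 0 with ha
  set b := A.1 0 1 with hb
  set c := A.1 1 0 with hc
  set d := A.1 1 1 with hd
  have hw0 : w ≠ 0 := by
    rintro rfl
    norm_num at hw
  have hww : w ^ 2 + w + 1 = 0 := by
    have : (w - 1) * (w ^ 2 + w + 1) = 0 := by linear_combination hw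
    rcases mul_eq_zero.1 this with h | h
    · exact absurd (sub_eq_zero.1 h) hw1
    · exact h
  have hwi : w⁻¹ = w ^ 2 := by
    apply mul_left_cancel₀ hw0
    rw [mul_inv_cancel₀ hw0]
    linear_combination -hw
  have hA2 : A.1 = !![a, b; c, d] := by
    apply Matrix.ext
    intro i j
    fin_cases i <;> fin_cases j <;> rfl
  by_cases hc0 : c = 0
  · rw [hc0, mul_zero, sub_zero] at hdet
    have haa : a ^ 2 + a + 1 = 0 := by linear_combination a * htr - hdet
    have ha0 : a ≠ 0 := by
      intro h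
      rw [h] at haa
      norm_num at haa
    have ha3 : a ^ 3 = 1 := by linear_combination (a - 1) * haa
    have ha1 : a ≠ 1 := by
      intro h
      rw [h] at haa
      apply h3
      linear_combination haa
    have hai : a⁻¹ = d := by
      apply mul_left_cancel₀ ha0
      rw [mul_inv_cancel₀ ha0, hdet]
    have hne : a - d ≠ 0 := by
      intro h
      have e : a = d := sub_eq_zero.1 h
      rw [← e] at hdet htr
      apply ha1
      linear_combination ha3 - a * hdet
    obtain ⟨G, hG⟩ : ∃ G : SpecialLinearGroup (Fin 2) F, G.1 = !![1, b / (a - d); 0, 1] :=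
      ⟨⟨!![1, b / (a - d); 0, 1], by rw [Matrix.det_fin_two_of]; ring⟩, rfl⟩
    refine ⟨G, a, ?_, ha3, ha1⟩
    rw [mul_inv_eq_iff_eq_mul]
    apply Subtype.ext
    show G.1 * A.1 = (hS a).1 * G.1
    rw [hG]
    rw [coe_hS ha0, hai, hA2, hc0, Matrix.mul_fin_two, Matrix.mul_fin_two]
    have e1 : b + b / (a - d) * d = a * (b / (a - d)) := by
      field_simp
      ring
    simp only [one_mul, mul_zero, add_zero, zero_mul, zero_add, mul_one, e1]
  · have hne : w ^ 2 - w ≠ 0 := by
      intro h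
      have e : w * (w - 1) = 0 := by linear_combination h
      rcases mul_eq_zero.1 e with h | h
      · exact hw0 h
      · exact hw1 (sub_eq_zero.1 h)
    obtain ⟨x, hx⟩ : ∃ x : F, x * c = w - a := ⟨(w - a) / c, div_mul_cancel₀ _ hc0⟩
    obtain ⟨y, hy⟩ : ∃ y : F, y * (w ^ 2 - w) = c := ⟨c / (w ^ 2 - w), div_mul_cancel₀ _ hne⟩
    obtain ⟨G, hG⟩ : ∃ G : SpecialLinearGroup (Fin 2) F, G.1 = !![1, x; y, x * y + 1] :=
      ⟨⟨!![1, x; y, x * y + 1], by rw [Matrix.det_fin_two_of]; ring⟩, rfl⟩
    refine ⟨G, w, ?_, hw, hw1⟩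
    rw [mul_inv_eq_iff_eq_mul]
    apply Subtype.ext
    show G.1 * A.1 = (hS w).1 * G.1
    rw [hG]
    have g1 : a + x * c = w := by linear_combination hx
    have g2 : b + x * d = w * x := by
      apply mul_left_cancel₀ hc0
      linear_combination (-1) * hdet + (d - w) * hx + w * htr - hww
    have g3 : y * a + (x * y + 1) * c = w⁻¹ * y := by
      rw [hwi]
      linear_combination y * g1 - hy
    have g4 : y * b + (x * y + 1) * d = w⁻¹ * (x * y + 1) := by
      rw [hwi]
      linear_combination y * g2 - x * hy - hx + htr - hww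
    rw [coe_hS hw0, hA2, Matrix.mul_fin_two, Matrix.mul_fin_two]
    simp only [one_mul, add_zero, zero_mul, zero_add, mul_one, g1, g2, g3, g4]

theorem three_ne_zero_of [Finite F] (h : Nat.card F % 3 = 1) : (3 : F) ≠ 0 := by
  intro h3
  have := Fintype.ofFinite F
  have h2 : ((Nat.card F : ℕ) : F) = 0 := by
    rw [Nat.card_eq_fintype_card]; exact FiniteField.cast_card_eq_zero F
  have h4 : Nat.card F = 3 * (Nat.card F / 3) + 1 := by omega
  rw [h4] at h2
  push_cast at h2
  rw [h3, zero_mul, zero_add] at h2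
  exact one_ne_zero h2

/-- A primitive cube root of unity. -/
theorem exists_omega [Finite F] (h : Nat.card F % 3 = 1) : ∃ w : F, w ^ 3 = 1 ∧ w ≠ 1 := by
  have : Fact (Nat.Prime 3) := ⟨Nat.prime_three⟩
  have hdvd : 3 ∣ Nat.card Fˣ := by
    rw [Nat.card_units]
    have h1 : 0 < Nat.card F := Nat.card_pos
    omega
  obtain ⟨u, hu⟩ := exists_prime_orderOf_dvd_card' 3 hdvd
  refine ⟨(u : F), ?_, ?_⟩
  · rw [← Units.val_pow_eq_pow_val, ← hu, pow_orderOf_eq_one, Units.val_one]
  · intro e
    have : u = 1 := Units.ext e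
    rw [this, orderOf_one] at hu
    omega

/-- **Elements of order three of `SL(2, q)`, `q ≡ 1 mod 3`, are diagonalisable.** -/
theorem exists_conj_hS [Finite F] (h : Nat.card F % 3 = 1) {A : SpecialLinearGroup (Fin 2) F} (hA : A ^ 3 = 1)
    (h1 : A ≠ 1) : ∃ (g : SpecialLinearGroup (Fin 2) F) (d : F), g * A * g⁻¹ = hS d ∧ d ^ 3 = 1 ∧ d ≠ 1 := by
  obtain ⟨w, hw, hw1⟩ := exists_omega h
  exact exists_conj_hS' hA h1 hw hw1 (three_ne_zero_of h)

/-- The same for `Fintype`. -/
theorem exists_conj_hS_fintype [Fintype F] (h : Fintype.card F % 3 = 1) {A : SpecialLinearGroup (Fin 2) F}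
    (hA : A ^ 3 = 1) (h1 : A ≠ 1) :
    ∃ (g : SpecialLinearGroup (Fin 2) F) (d : F), g * A * g⁻¹ = hS d ∧ d ^ 3 = 1 ∧ d ≠ 1 :=
  exists_conj_hS (by rw [Nat.card_eq_fintype_card]; exact h) hA h1

end Cfsg.Agent.H442.TD.Diag3
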