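import Cfsg.Agent.CpAutTri.FinD
import Cfsg.Agent.H28.FamFour

/-!
# S3509, triality of `D₄(L)`: the centralizer of `conj t * γ`, the classes in `U`

* `hC3` : `w * t = t * γ w → γ w = w`, `t = x_23(c)`, `c ≠ 0`, every field (from `CpAutTri.Cen.cen`);
* `exists_z3U` : in characteristic 3 with cube roots, `y ∈ U`, `y * γ y * γ (γ y) = 1`: `∃ z c, z * y * (γ z)⁻¹ = x_23(c)`
  (from `CpAutTri.Coc.Tri.main`, `CpAutTri.TriD.tri`).
-/

set_option autoImplicit false
set_option linter.unusedSectionVars false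

namespace Cfsg.Agent.H442.TD

open Cfsg.Lie Cfsg.Agent.ChevalleyStructure
open Cfsg.Agent.ChevalleyStructure.D4Comm
open Cfsg.Agent.ChevalleyStructure.D4RGD
open Cfsg.Agent.ChevalleyStructure.D4U
open Cfsg.Agent.ChevalleyStructure.GraphSymm (symmD4a)
open Cfsg.Agent.ChevalleyStructure.D4Fixed (sig)
open Cfsg.Agent.CpAutTri.Bru Cfsg.Agent.CpAutTri.Fam Cfsg.Agent.CpAutTri.Coc Cfsg.Agent.CpAutTri.Inst
open Cfsg.Agent.CpAut.RgdTwD4 (hD4)
open Cfsg.Agent.ChevalleyStructure.D4NConj (nR)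
open Cfsg.Agent.BpExc.FamTw.Gr
open Cfsg.Agent.H28.FamFour

variable {K : Type*} [Field K]

theorem coe_gr3 (w : ↥(chevD4.group K)) :
    ((gr hD4 symmD4a w : ↥(chevD4.group K)) : GL chevD4.Idx K) = sig (RingHom.id K) w := by
  rw [coe_gr, coe_sig_id]

theorem coe_xg3 (r : ℕ) (t : K) : ((xg hD4 r t : ↥(chevD4.group K)) : GL chevD4.Idx K) = D4Comm.xG r t := by
  rw [coe_xg]
  exact Units.ext rfl

/-- **The centralizer of `conj t * γ`.** -/
theorem hC3 {c : K} (hc : c ≠ 0) {w : ↥(chevD4.group K)}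
    (h : w * xg hD4 23 c = xg hD4 23 c * gr hD4 symmD4a w) : gr hD4 symmD4a w = w := by
  have h1 := congrArg Subtype.val h
  rw [Subgroup.coe_mul, Subgroup.coe_mul, coe_gr3, coe_xg3] at h1
  have h2 : D4Comm.xG 23 c * sig (RingHom.id K) (w : GL chevD4.Idx K) * (D4Comm.xG 23 c)⁻¹ = w := by
    rw [← h1, mul_inv_cancel_right]
  have h3 := CpAutTri.Cen.cen w.2 hc h2
  apply Subtype.ext
  rw [coe_gr3]
  rw [h3] at h1
  exact (mul_left_cancel h1).symm

/-- **The classes of triality in `U`, characteristic 3.** -/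
theorem exists_z3U [CharP K 3] (hcr : ∀ c : K, ∃ t, t ^ 3 = c) {y : ↥(chevD4.group K)}
    (hy : (y : GL chevD4.Idx K) ∈ chevD4.posUnipotent K)
    (h : y * gr hD4 symmD4a y * gr hD4 symmD4a (gr hD4 symmD4a y) = 1) :
    ∃ (z : ↥(chevD4.group K)) (c : K), z * y * (gr hD4 symmD4a z)⁻¹ = xg hD4 23 c := by
  have hfs : ∀ H : Subgroup (GL chevD4.Idx K), H ⊓ FS (∅ : Set (K →+* K)) = H := fun H => by
    rw [FS_empty, inf_top_eq]
  have hG : chevD4.posUnipotent K ⊓ FS (∅ : Set (K →+* K)) ≤ chevD4.group K := by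
    rw [hfs]
    exact (U_le_B).trans (D4Twisted.borel_le_group K)
  have hA := (orbA (RingHom.id K)).h1_free
  have h1 := (orb1 (RingHom.id K)).h1_free
  have h2 := (orb2 (RingHom.id K)).h1_free
  have T := CpAutTri.TriD.tri hcr (∅ : Set (K →+* K)) hG
    (D4Twisted.monomial_le_group K (nR_one_mem (r := 14) (by norm_num)))
    (by
      have h3 : ∀ r : ℕ, r < 24 → nR r (1 : K) ∈ chevD4.monomialSubgroup K := fun r hr => nR_one_mem hr
      exact D4Twisted.monomial_le_group K (mul_mem (mul_mem (h3 18 (by norm_num)) (h3 13 (by norm_num)))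
        (h3 12 (by norm_num))))
    (by rw [hfs]; exact hA) (by rw [hfs]; exact h1) (by rw [hfs]; exact h2)
  have hN : (y : GL chevD4.Idx K) * sig (RingHom.id K) y * sig (RingHom.id K) (sig (RingHom.id K) y) = 1 := by
    have h4 := congrArg Subtype.val h
    rw [Subgroup.coe_mul, Subgroup.coe_mul, coe_gr3, coe_gr3, coe_gr3] at h4
    exact h4
  obtain ⟨z, hz, g, hg, hgz⟩ := T.main (by rw [hfs]; exact hy) hN
  obtain ⟨c, rfl⟩ := CpAutTri.TriD.exists_RS1 (by decide +kernel) (Subgroup.mem_inf.1 hz).1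
  refine ⟨(⟨g, hg⟩ : ↥(chevD4.group K))⁻¹, c, ?_⟩
  apply Subtype.ext
  rw [map_inv, inv_inv, Subgroup.coe_mul, Subgroup.coe_mul, coe_gr3, coe_xg3, Subgroup.coe_inv]
  exact hgz

end Cfsg.Agent.H442.TD
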