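import Cfsg.Agent.H442.TD.Cent3
import Cfsg.Agent.H167.AltChev
import Cfsg.Agent.BpExc.RowsUntw
import Cfsg.Agent.H469.Exc.Model

/-!
# S3509: the classes of triality automorphisms of `D₄(KK 3)`

* `exists_coset` : a cocycle of an automorphism of order 3 of a finite group, preserving a subgroup of index prime to 3,
  can be moved into this subgroup;
* `exists_z3` : `y * γ y * γ (γ y) = 1` in `D₄(KK 3)` implies `z * y * (γ z)⁻¹ = 1` or `= x_23(1)` for some `z`.
-/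

set_option autoImplicit false
set_option linter.unusedSectionVars false

namespace Cfsg.Agent.H442.TD

open Cfsg.Lie Cfsg.Agent.ChevalleyStructure
open Cfsg.Agent.ChevalleyStructure.CoxeterGeomTypes
open Cfsg.Agent.ChevalleyStructure.GraphSymm (symmD4a)
open Cfsg.Agent.CpAut.RgdTwD4 (hD4)
open Cfsg.Agent.BpExc.FamTw.Gr
open Cfsg.Agent.BpExc.TorAll (EE mem_EE card_EE finite_EE HAlg hAlg_of_isAlgebraic exists_level)
open Cfsg.Agent.GpExc.Field (glMap coe_glMap glMap_xG emb coe_emb emb_injective)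
open Cfsg.Agent.H469.Exc (KK)

/-- a cocycle of an automorphism of order 3 can be moved into a stable subgroup of index prime to 3 -/
theorem exists_coset {G : Type*} [Group G] [Finite G] (γ : G →* G) (hγ : ∀ g, γ (γ (γ g)) = g) (P : Subgroup G)
    (hP : ∀ u ∈ P, γ u ∈ P) (hidx : ¬ 3 ∣ P.index) {y : G} (hy : y * γ y * γ (γ y) = 1) :
    ∃ g, g⁻¹ * y * γ g ∈ P := by
  classical
  obtain ⟨F, hFm⟩ : ∃ F : G ⧸ P → G ⧸ P, ∀ g : G, F (QuotientGroup.mk g) = QuotientGroup.mk (y * γ g) :=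
    ⟨Quotient.map' (fun g => y * γ g) (by
      intro a b hab
      rw [QuotientGroup.leftRel_apply] at hab ⊢
      have e : (y * γ a)⁻¹ * (y * γ b) = γ (a⁻¹ * b) := by rw [map_mul, map_inv]; group
      rw [e]
      exact hP _ hab), fun g => rfl⟩
  have hF : ∀ x, F (F (F x)) = x := by
    intro x
    induction x using QuotientGroup.induction_on with
    | H g =>
      rw [hFm, hFm, hFm]
      congr 1
      calc y * γ (y * γ (y * γ g)) = (y * γ y * γ (γ y)) * γ (γ (γ g)) := by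
            simp only [map_mul, mul_assoc]
        _ = g := by rw [hy, one_mul, hγ]
  let σ : Equiv.Perm (G ⧸ P) := ⟨F, fun x => F (F x), hF, hF⟩
  have hσ : σ ^ 3 ^ 1 = 1 := by
    refine Equiv.ext fun x => ?_
    show (σ ^ 3) x = x
    exact hF x
  have : Fintype (G ⧸ P) := Fintype.ofFinite _
  have hcard : ¬ 3 ∣ Fintype.card (G ⧸ P) := by
    rw [← Nat.card_eq_fintype_card]
    exact hidx
  have : Fact (Nat.Prime 3) := ⟨Nat.prime_three⟩
  obtain ⟨x, hx⟩ := Equiv.Perm.exists_fixed_point_of_prime hcard hσ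
  induction x using QuotientGroup.induction_on with
  | H g =>
    have h1 : F (QuotientGroup.mk g) = QuotientGroup.mk g := hx
    rw [hFm] at h1
    have h2 := QuotientGroup.eq.1 h1.symm
    exact ⟨g, by rw [mul_assoc]; exact h2⟩

section emb

variable {K L : Type} [Field K] [Field L] (f : K →+* L)

/-- the graph automorphism commutes with field embeddings -/
theorem gr_emb (g : ↥(chevD4.group K)) : gr hD4 symmD4a (emb hD4 f g) = emb hD4 f (gr hD4 symmD4a g) := by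
  apply Subtype.ext
  rw [coe_gr, coe_emb, coe_emb, coe_gr, map_mul, map_mul, map_inv, glMap_P]

theorem emb_posUnipotent {g : ↥(chevD4.group K)} (hg : (g : GL chevD4.Idx K) ∈ chevD4.posUnipotent K) :
    ((emb hD4 f g : ↥(chevD4.group L)) : GL chevD4.Idx L) ∈ chevD4.posUnipotent L := by
  rw [coe_emb]
  have key : chevD4.posUnipotent K ≤ (chevD4.posUnipotent L).comap (glMap chevD4 f) := by
    refine (Elts.posUnipotent_le_iff hD4 _).2 fun r hr t => ?_
    rw [Subgroup.mem_comap, glMap_xG]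
    exact Elts.xG_mem_posUnipotent hD4 hr _
  exact key hg

theorem gr_cube' (g : ↥(chevD4.group K)) : gr hD4 symmD4a (gr hD4 symmD4a (gr hD4 symmD4a g)) = g := by
  have h := DFunLike.congr_fun (Cfsg.Agent.H28.FamFour.gr_cube_D4 (L := K)) g
  rw [pow_succ, pow_two, MulAut.mul_apply, MulAut.mul_apply] at h
  exact h

end emb

/-- the finite level -/
theorem exists_fin {K : Type} [Field K] [Finite K] [CharP K 3] {y : ↥(chevD4.group K)}
    (h : y * gr hD4 symmD4a y * gr hD4 symmD4a (gr hD4 symmD4a y) = 1) :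
    ∃ g : ↥(chevD4.group K), ((g⁻¹ * y * gr hD4 symmD4a g : ↥(chevD4.group K)) : GL chevD4.Idx K) ∈
      chevD4.posUnipotent K := by
  have : Fact (Nat.Prime 3) := ⟨Nat.prime_three⟩
  obtain ⟨P, hP⟩ := H167.AltChev.exists_sylow (K := K) Cfsg.Agent.Nodes.RGDTwD4.hp 3
  have hγ : ∀ u ∈ (P : Subgroup ↥(chevD4.group K)), gr hD4 symmD4a u ∈ (P : Subgroup ↥(chevD4.group K)) := by
    rw [hP]
    intro u hu
    rw [Subgroup.mem_subgroupOf] at hu ⊢
    rw [coe_gr3]
    exact CpAutTri.Bru.sig_U _ hu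
  obtain ⟨g, hg⟩ := exists_coset (gr hD4 symmD4a : MulAut ↥(chevD4.group K)).toMonoidHom gr_cube'
    (P : Subgroup ↥(chevD4.group K)) hγ P.not_dvd_index h
  refine ⟨g, ?_⟩
  rw [hP, Subgroup.mem_subgroupOf] at hg
  exact hg

/-- the torus -/
theorem exists_tor3 {L : Type} [Field L] {c : L} (hc : c ≠ 0) : ∃ z : ↥(chevD4.group L), gr hD4 symmD4a z = z ∧
    z * xg hD4 23 c * z⁻¹ = xg hD4 23 1 := by
  have h1 : Elts.hG hD4 14 c⁻¹ ∈ chevD4.group L := Elts.hG_mem_group hD4 _ _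
  refine ⟨⟨Elts.hG hD4 14 c⁻¹, h1⟩, ?_, ?_⟩
  · apply Subtype.ext
    rw [coe_gr]
    exact P_hG hD4 symmD4a (r := ⟨14, by decide⟩) (by decide +kernel) c⁻¹
  · apply Subtype.ext
    rw [Subgroup.coe_mul, Subgroup.coe_mul, Subgroup.coe_inv, coe_xg, coe_xg]
    have h2 := BruhatSplit.hG_simple_conj hD4 (i := 1) (s := 23) (by decide) (by decide) (inv_ne_zero hc) c
    have h3 : chevD4.simple 1 = 14 := by decide +kernel
    have h4 : chevD4.cartan 1 23 = 1 := by decide +kernel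
    rw [h3, h4, zpow_one, inv_mul_cancel₀ hc] at h2
    exact h2

/-- **The classes of triality automorphisms, characteristic 3.** -/
theorem exists_z3 [Fact (Nat.Prime 3)] {y : ↥(chevD4.group (KK 3))}
    (h : y * gr hD4 symmD4a y * gr hD4 symmD4a (gr hD4 symmD4a y) = 1) :
    ∃ z, z * y * (gr hD4 symmD4a z)⁻¹ = 1 ∨ z * y * (gr hD4 symmD4a z)⁻¹ = xg hD4 23 1 := by
  have hk : HAlg 3 (KK 3) := hAlg_of_isAlgebraic 3 _
  obtain ⟨m, hm, hy⟩ := exists_level Cfsg.Agent.Nodes.RGDTwD4.hp 3 hk y.2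
  have hfin : Finite ↥(EE 3 m : Subfield (KK 3)) := finite_EE 3 hm
  obtain ⟨f, hf⟩ : ∃ f : ↥(EE 3 m : Subfield (KK 3)) →+* KK 3, f = (EE 3 m : Subfield (KK 3)).subtype := ⟨_, rfl⟩
  have hch : CharP ↥(EE 3 m : Subfield (KK 3)) 3 := (RingHom.charP_iff f f.injective 3).2 inferInstance
  obtain ⟨b, hb, hby⟩ := hy
  obtain ⟨b', hb'⟩ : ∃ b' : ↥(chevD4.group ↥(EE 3 m : Subfield (KK 3))), b' = ⟨b, hb⟩ := ⟨_, rfl⟩
  have hyb : emb hD4 f b' = y := by
    apply Subtype.ext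
    rw [coe_emb, hb', hf, ← hby]
    exact Units.ext rfl
  have hb1 : b' * gr hD4 symmD4a b' * gr hD4 symmD4a (gr hD4 symmD4a b') = 1 := by
    apply emb_injective hD4 f
    rw [map_mul, map_mul, map_one, ← gr_emb, ← gr_emb, ← gr_emb, hyb]
    exact h
  obtain ⟨g, hg⟩ := exists_fin hb1
  have h1 := emb_posUnipotent f hg
  obtain ⟨u, hu⟩ : ∃ u, u = emb hD4 f (g⁻¹ * b' * gr hD4 symmD4a g) := ⟨_, rfl⟩
  have hu' : u = (emb hD4 f g)⁻¹ * y * gr hD4 symmD4a (emb hD4 f g) := by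
    rw [hu, map_mul, map_mul, map_inv, hyb, ← gr_emb]
  rw [← hu] at h1
  have h2 : u * gr hD4 symmD4a u * gr hD4 symmD4a (gr hD4 symmD4a u) = 1 := by
    rw [hu']
    simp only [map_mul, map_inv, gr_cube']
    calc (emb hD4 f g)⁻¹ * y * gr hD4 symmD4a (emb hD4 f g) *
          ((gr hD4 symmD4a (emb hD4 f g))⁻¹ * gr hD4 symmD4a y * gr hD4 symmD4a (gr hD4 symmD4a (emb hD4 f g))) *
          ((gr hD4 symmD4a (gr hD4 symmD4a (emb hD4 f g)))⁻¹ * gr hD4 symmD4a (gr hD4 symmD4a y) * emb hD4 f g) =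
          (emb hD4 f g)⁻¹ * (y * gr hD4 symmD4a y * gr hD4 symmD4a (gr hD4 symmD4a y)) * emb hD4 f g := by group
      _ = 1 := by rw [h]; group
  have hcr : ∀ c : KK 3, ∃ t, t ^ 3 = c := fun c => IsAlgClosed.exists_pow_nat_eq c (by norm_num)
  obtain ⟨z, c, hz⟩ := exists_z3U hcr h1 h2
  have hz' : (z * (emb hD4 f g)⁻¹) * y * (gr hD4 symmD4a (z * (emb hD4 f g)⁻¹))⁻¹ = xg hD4 23 c := by
    rw [← hz, hu', map_mul, map_inv]
    group
  by_cases hc : c = 0
  · refine ⟨z * (emb hD4 f g)⁻¹, Or.inl ?_⟩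
    rw [hz', hc]
    exact Subtype.ext (Elts.xG_zero hD4 _)
  · obtain ⟨s, hs, hs'⟩ := exists_tor3 hc
    refine ⟨s * (z * (emb hD4 f g)⁻¹), Or.inr ?_⟩
    rw [map_mul, hs, ← hs', ← hz']
    group

end Cfsg.Agent.H442.TD
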