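import Cfsg.Agent.H866.D4Wf.Row

/-!
# S3509, `³D₄(q)`, type II: fixed points in the unipotent radical of the parabolic subgroup of the long node

* `fthree` : `x = conj (Φ₀ cZ) * st q τ`, `τ ^ 3 = 1`, `τ ≠ 1`, `3 ∤ q` : there is `v ∈ VJ {0}`, `x v = v`,
  `v ∉ X₁₂ X₁₃ X₂₃`.
-/

set_option autoImplicit false
set_option linter.unusedSectionVars false
set_option maxHeartbeats 400000

namespace Cfsg.Agent.H442.TD.FThree

open CoxeterSystem Cfsg.Agent.ChevalleyStructure.CoxeterGeom Cfsg.Agent.Tits.Roots Cfsg.Agent.Tits.Core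
  Cfsg.Agent.Tits.Exchange Cfsg.Agent.Nodes.Reps Cfsg.Agent.Nodes.BNOf Cfsg.Agent.Nodes.StabComb
  Cfsg.Agent.Nodes.Bruhat Cfsg.Agent.Nodes.OppDec Cfsg.Agent.Nodes.LeviDec Cfsg.Agent.Nodes.RGDTwGen
  Cfsg.Agent.Nodes.RGDChev Cfsg.Agent.Nodes.RGDFold Cfsg.Agent.Nodes.RGDFoldSL
open Cfsg.Agent.KFacts.RgdOpp Cfsg.Agent.KFacts.RgdAut Cfsg.Agent.KFacts.RgdDiag Cfsg.Agent.KFacts.RgdRigid
  Cfsg.Agent.KFacts.RgdField Cfsg.Agent.KFacts.RgdTau Cfsg.Agent.KFacts.RgdNodes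
open Cfsg.Lie Cfsg.Agent.ChevalleyStructure Cfsg.Agent.ChevalleyStructure.Elts
open Cfsg.Agent.ChevalleyStructure.SL2Hom (up lo mem_closure_SL2)
open Cfsg.Agent.KFacts.TwDFour.Out
open Cfsg.Agent.Nodes.RGDTwD4 Cfsg.Agent.Nodes.RGDTwNode.D4
open Cfsg.Agent.CpAut.RgdFix Cfsg.Agent.CpAut.RgdConj Cfsg.Agent.CpAut.RgdTwStd Cfsg.Agent.CpAut.RgdTwD4
open Cfsg.Agent.H28.FamFour (st_mul st_one)
open Cfsg.Agent.H866.D4Wf.Frame Cfsg.Agent.H866.D4Wf.SLThree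
open scoped commutatorElement

/-- commutators of generated subgroups -/
theorem comm_cl {Γ : Type*} [Group Γ] {S : Set Γ} {R : Subgroup Γ}
    (hN : Subgroup.closure S ≤ Subgroup.normalizer (R : Set Γ)) (hS : ∀ g ∈ S, ∀ h ∈ S, ⁅g, h⁆ ∈ R) {g h : Γ}
    (hg : g ∈ Subgroup.closure S) (hh : h ∈ Subgroup.closure S) : ⁅g, h⁆ ∈ R := by
  have hconj : ∀ a ∈ Subgroup.closure S, ∀ r ∈ R, a * r * a⁻¹ ∈ R := fun a ha r hr =>
    (Subgroup.mem_normalizer_iff.1 (hN ha) r).1 hr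
  have key : ∀ h : Γ, (∀ g ∈ S, ⁅g, h⁆ ∈ R) → ∀ g ∈ Subgroup.closure S, ⁅g, h⁆ ∈ R := by
    intro h h1 g hg
    refine Subgroup.closure_induction (p := fun g _ => ⁅g, h⁆ ∈ R) h1 ?_ ?_ ?_ hg
    · rw [commutatorElement_one_left]
      exact one_mem R
    · intro a b ha hb h2 h3
      have e : ⁅a * b, h⁆ = (a * ⁅b, h⁆ * a⁻¹) * ⁅a, h⁆ := by
        rw [commutatorElement_def, commutatorElement_def, commutatorElement_def]
        group
      rw [e]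
      exact mul_mem (hconj a ha _ h3) h2
    · intro a ha h2
      have e : ⁅a⁻¹, h⁆ = a⁻¹ * (⁅a, h⁆)⁻¹ * (a⁻¹)⁻¹ := by
        rw [commutatorElement_def, commutatorElement_def]
        group
      rw [e]
      exact hconj _ (inv_mem ha) _ (inv_mem h2)
  refine key h ?_ g hg
  intro g hg
  have h1 : ⁅h, g⁆ ∈ R := key g (fun a ha => hS a ha g hg) h hh
  rw [← commutatorElement_inv]
  exact inv_mem h1

/-- roots between two roots -/
theorem btwn_det {x y z : Fin 2 → ℤ} (hD : x 0 * y 1 - x 1 * y 0 ≠ 0) (h : Btwn cs isCartan x y z) :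
    0 < (x 0 * z 1 - x 1 * z 0) * (x 0 * y 1 - x 1 * y 0) ∧ 0 < (z 0 * y 1 - z 1 * y 0) * (x 0 * y 1 - x 1 * y 0) := by
  obtain ⟨-, m, a, b, hm, ha, hb, he⟩ := h
  have h0 : m * z 0 = a * x 0 + b * y 0 := congrFun he 0
  have h1 : m * z 1 = a * x 1 + b * y 1 := congrFun he 1
  have hD2 : 0 < (x 0 * y 1 - x 1 * y 0) * (x 0 * y 1 - x 1 * y 0) := mul_self_pos.2 hD
  constructor
  · have e : m * ((x 0 * z 1 - x 1 * z 0) * (x 0 * y 1 - x 1 * y 0)) =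
        b * ((x 0 * y 1 - x 1 * y 0) * (x 0 * y 1 - x 1 * y 0)) := by
      linear_combination (x 0 * (x 0 * y 1 - x 1 * y 0)) * h1 - (x 1 * (x 0 * y 1 - x 1 * y 0)) * h0
    have h2 : 0 < m * ((x 0 * z 1 - x 1 * z 0) * (x 0 * y 1 - x 1 * y 0)) := by rw [e]; exact mul_pos hb hD2
    exact (mul_pos_iff_of_pos_left hm).1 h2
  · have e : m * ((z 0 * y 1 - z 1 * y 0) * (x 0 * y 1 - x 1 * y 0)) =
        a * ((x 0 * y 1 - x 1 * y 0) * (x 0 * y 1 - x 1 * y 0)) := by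
      linear_combination (y 1 * (x 0 * y 1 - x 1 * y 0)) * h0 - (y 0 * (x 0 * y 1 - x 1 * y 0)) * h1
    have h2 : 0 < m * ((z 0 * y 1 - z 1 * y 0) * (x 0 * y 1 - x 1 * y 0)) := by rw [e]; exact mul_pos ha hD2
    exact (mul_pos_iff_of_pos_left hm).1 h2

/-- `x`, `y` independent, the roots between them are in `S` -/
def Bt (x y : Fin 2 → ℤ) (S : List (Fin 2 → ℤ)) : Prop :=
  x 0 * y 1 - x 1 * y 0 ≠ 0 ∧ ∀ z ∈ rts, 0 < (x 0 * z 1 - x 1 * z 0) * (x 0 * y 1 - x 1 * y 0) →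
    0 < (z 0 * y 1 - z 1 * y 0) * (x 0 * y 1 - x 1 * y 0) → z ∈ S

instance (x y : Fin 2 → ℤ) (S : List (Fin 2 → ℤ)) : Decidable (Bt x y S) := by unfold Bt; infer_instance

def L2 : List (Fin 2 → ℤ) := [![1, 2], ![1, 3], ![2, 3]]
def LW : List (Fin 2 → ℤ) := [![0, 1], ![1, 2], ![1, 3], ![2, 3]]
def L1 : List (Fin 2 → ℤ) := [![1, 1], ![1, 2], ![1, 3], ![2, 3]]
def LV : List (Fin 2 → ℤ) := [![0, 1], ![1, 1], ![1, 2], ![1, 3], ![2, 3]]

variable {K : Type} [Field K] [Fintype K] {q : ℕ} (hK : Fintype.card K = q ^ 3)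
  {φ : K →+* K} (hφ : ∀ x, φ x = x ^ q)

/-- the group generated by the root groups of a list -/
noncomputable abbrev SP (φ : K →+* K) (q : ℕ) (S : List (Fin 2 → ℤ)) : Subgroup ↥(twistedD4 K q) := RGD.Sup (X φ q) {z | z ∈ S}

theorem X_le {S : List (Fin 2 → ℤ)} {z : Fin 2 → ℤ} (hz : z ∈ S) : X φ q z ≤ SP φ q S :=
  RGD.le_Sup (S := {z | z ∈ S}) hz

theorem SP_mono {S S' : List (Fin 2 → ℤ)} (h : ∀ z ∈ S, z ∈ S') : SP φ q S ≤ SP φ q S' :=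
  RGD.Sup_mono h

include hK hφ

theorem comm_X {x y : Fin 2 → ℤ} {S : List (Fin 2 → ℤ)} (hx : x ∈ rts) (hy : y ∈ rts) (h : Bt x y S)
    {a b : ↥(twistedD4 K q)} (ha : a ∈ X φ q x) (hb : b ∈ X φ q y) : ⁅a, b⁆ ∈ SP φ q S := by
  obtain ⟨r, hr⟩ := CharP.exists K
  have : Fact r.Prime := ⟨CharP.char_is_prime K r⟩
  have hxy : x ≠ y := by
    rintro rfl
    exact h.1 (by ring)
  have hxy' : x ≠ -y := by
    rintro rfl
    exact h.1 (by simp [Pi.neg_apply]; ring)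
  have h4 := (rgd' hK hφ r).comm x y (isRoot_of_mem hx) (isRoot_of_mem hy) hxy hxy' a ha b hb
  have h5 : btw cs isCartan (X φ q) x y ≤ SP φ q S := by
    unfold Nodes.Reps.btw
    refine iSup_le ?_
    rintro ⟨w, hw⟩
    obtain ⟨h6, h7⟩ := btwn_det h.1 hw
    exact X_le (h.2 w (root_mem hw.1) h6 h7)
  exact h5 h4

theorem conj_SP {x : Fin 2 → ℤ} {S : List (Fin 2 → ℤ)} (hx : x ∈ rts) (hS : ∀ w ∈ S, w ∈ rts ∧ (x = w ∨ Bt x w S))
    {g : ↥(twistedD4 K q)} (hg : g ∈ X φ q x) {r : ↥(twistedD4 K q)} (hr : r ∈ SP φ q S) :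
    g * r * g⁻¹ ∈ SP φ q S := by
  have key : SP φ q S ≤ (SP φ q S).comap (MulAut.conj g).toMonoidHom := by
    refine RGD.Sup_le fun w hw r hr => ?_
    show g * r * g⁻¹ ∈ SP φ q S
    obtain ⟨h1, h2 | h2⟩ := hS w hw
    · subst h2
      exact X_le hw (mul_mem (mul_mem hg hr) (inv_mem hg))
    · have h3 := comm_X hK hφ hx h1 h2 hg hr
      have e : g * r * g⁻¹ = ⁅g, r⁆ * r := by rw [commutatorElement_def]; group
      rw [e]
      exact mul_mem h3 (X_le hw hr)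
  exact key hr

theorem X_norm {x : Fin 2 → ℤ} {S : List (Fin 2 → ℤ)} (hx : x ∈ rts) (hS : ∀ w ∈ S, w ∈ rts ∧ (x = w ∨ Bt x w S)) :
    X φ q x ≤ Subgroup.normalizer (SP φ q S : Set ↥(twistedD4 K q)) := by
  intro g hg
  rw [Subgroup.mem_normalizer_iff]
  intro r
  constructor
  · exact conj_SP hK hφ hx hS hg
  · intro h
    have h1 := conj_SP hK hφ hx hS (inv_mem hg) h
    have e : g⁻¹ * (g * r * g⁻¹) * g⁻¹⁻¹ = r := by group
    rwa [e] at h1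

theorem n_cj {x : Fin 2 → ℤ} (hx : x ∈ rts) : cj (n hφ 0) (X φ q x) = X φ q (rep cs isCartan (cs.simple 0) x) := by
  obtain ⟨r, hr⟩ := CharP.exists K
  have : Fact r.Prime := ⟨CharP.char_is_prime K r⟩
  exact (rgd' hK hφ r).conj 0 x (isRoot_of_mem hx)

theorem n_inv {x : Fin 2 → ℤ} (hx : x ∈ rts) {a : ↥(twistedD4 K q)} (ha : a ∈ X φ q x) :
    (n hφ 0)⁻¹ * a * n hφ 0 ∈ X φ q (rep cs isCartan (cs.simple 0) x) := by
  have hx' : rep cs isCartan (cs.simple 0) x ∈ rts := root_mem ((isRoot_of_mem hx).act _)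
  have h1 := n_cj hK hφ hx'
  have h2 : rep cs isCartan (cs.simple 0) (rep cs isCartan (cs.simple 0) x) = x := by
    rw [← rep_mul_apply, cs.simple_mul_simple_self, map_one, Module.End.one_apply]
  rw [h2] at h1
  rw [← h1] at ha
  have h3 : n hφ 0 * ((n hφ 0)⁻¹ * a * n hφ 0) * (n hφ 0)⁻¹ ∈ cj (n hφ 0) (X φ q (rep cs isCartan (cs.simple 0) x)) := by
    have e : n hφ 0 * ((n hφ 0)⁻¹ * a * n hφ 0) * (n hφ 0)⁻¹ = a := by group
    rw [e]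
    exact ha
  exact conj_mem_cj.1 h3

theorem n_inv_SP {S S' : List (Fin 2 → ℤ)} (hS : ∀ x ∈ S, x ∈ rts ∧ ![x 1 - x 0, x 1] ∈ S') {a : ↥(twistedD4 K q)}
    (ha : a ∈ SP φ q S) : (n hφ 0)⁻¹ * a * n hφ 0 ∈ SP φ q S' := by
  have key : SP φ q S ≤ (SP φ q S').comap (MulAut.conj (n hφ 0)⁻¹).toMonoidHom := by
    refine RGD.Sup_le fun x hx a ha => ?_
    show (n hφ 0)⁻¹ * a * (n hφ 0)⁻¹⁻¹ ∈ SP φ q S'
    rw [inv_inv]
    obtain ⟨h1, h2⟩ := hS x hx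
    have h3 := n_inv hK hφ h1 ha
    have e : x = ![x 0, x 1] := by ext k; fin_cases k <;> rfl
    have h4 : rep cs isCartan (cs.simple 0) x = ![x 1 - x 0, x 1] := by
      conv_lhs => rw [e]
      rw [rep0]
    rw [h4] at h3
    exact X_le h2 h3
  have := key ha
  have h5 : (n hφ 0)⁻¹ * a * (n hφ 0)⁻¹⁻¹ ∈ SP φ q S' := this
  rwa [inv_inv] at h5

omit hK hφ [Fintype K] in
theorem c_12 : ∀ k < chevD4.nroots, (V chevD4 Nodes.RGDTwD4.J k = ![1, 2] ↔ k ∈ [21, 17, 20]) := by decide +kernel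

theorem comm_sr0_12 {a b : ↥(twistedD4 K q)} (ha : a ∈ X φ q ![1, 0]) (hb : b ∈ X φ q ![1, 2]) : a * b = b * a :=
  X_comm_of hK hφ c_sr0 (by decide +kernel) c_12 (by decide +kernel) (by decide +kernel) ha hb

theorem conj10 {g : ↥(twistedD4 K q)} (hg : g ∈ X φ q ![1, 0]) {r : ↥(twistedD4 K q)} (hr : r ∈ SP φ q L2) :
    g * r * g⁻¹ ∈ SP φ q L2 := by
  have key : SP φ q L2 ≤ (SP φ q L2).comap (MulAut.conj g).toMonoidHom := by
    refine RGD.Sup_le fun w hw r hr => ?_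
    show g * r * g⁻¹ ∈ SP φ q L2
    have hw' : w = ![1, 2] ∨ w = ![1, 3] ∨ w = ![2, 3] := by
      have : w ∈ L2 := hw
      simpa [L2] using this
    rcases hw' with rfl | rfl | rfl
    · rw [comm_sr0_12 hK hφ hg hr, mul_inv_cancel_right]
      exact X_le (by decide) hr
    · have h1 := comm_sr0_del hK hφ hg hr
      have e : g * r * g⁻¹ = (g * r * g⁻¹ * r⁻¹) * r := by group
      rw [e]
      exact mul_mem (X_le (by decide) h1) (X_le (by decide) hr)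
    · rw [comm_sr0_the hK hφ hg hr, mul_inv_cancel_right]
      exact X_le (by decide) hr
  exact key hr

theorem commV {g h : ↥(twistedD4 K q)} (hg : g ∈ VJ cs isCartan (X φ q) {0}) (hh : h ∈ VJ cs isCartan (X φ q) {0}) :
    ⁅g, h⁆ ∈ SP φ q L2 := by
  have hle : VJ cs isCartan (X φ q) {0} ≤ Subgroup.closure {g | ∃ z ∈ LV, g ∈ X φ q z} := by
    refine RGD.Sup_le fun z hz g hg => Subgroup.subset_closure ⟨z, ?_, hg⟩
    obtain ⟨h1, h2, k, hk, hk0⟩ := hz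
    have hk1 : k = 1 := by
      fin_cases k
      · exact absurd (Set.mem_singleton _) hk
      · rfl
    subst hk1
    have h3 : ∀ z ∈ rts, 0 ≤ z 0 → 0 ≤ z 1 → 0 < z 1 → z ∈ LV := by decide
    exact h3 z (root_mem h1) (h2 0) (h2 1) hk0
  have hab : ∀ x ∈ LV, x ∉ L2 → ∀ a ∈ X φ q x, ∀ b ∈ X φ q x, a * b = b * a := by
    have h01 : ∀ a ∈ X φ q ![0, 1], ∀ b ∈ X φ q ![0, 1], a * b = b * a := by
      intro a ha b hb
      rw [← sr1_eq] at ha hb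
      obtain ⟨c, rfl⟩ := (mem_X hφ hK 1 a).1 ha
      obtain ⟨d, rfl⟩ := (mem_X hφ hK 1 b).1 hb
      rw [← map_mul, ← map_mul, up_mul, up_mul, add_comm]
    intro x hx hx2
    have hx' : x = ![0, 1] ∨ x = ![1, 1] := by
      have h5 : ∀ x ∈ LV, x ∉ L2 → x = ![0, 1] ∨ x = ![1, 1] := by decide
      exact h5 x hx hx2
    rcases hx' with rfl | rfl
    · exact h01
    · intro a ha b hb
      have e1 := n_inv hK hφ (x := ![1, 1]) (by decide) ha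
      have e2 := n_inv hK hφ (x := ![1, 1]) (by decide) hb
      have e3 : rep cs isCartan (cs.simple 0) ![1, 1] = ![0, 1] := by rw [rep0]; decide
      rw [e3] at e1 e2
      have h6 := h01 _ e1 _ e2
      have h7 : a * b = n hφ 0 * ((n hφ 0)⁻¹ * a * n hφ 0 * ((n hφ 0)⁻¹ * b * n hφ 0)) * (n hφ 0)⁻¹ := by group
      rw [h7, h6]
      group
  refine comm_cl (R := SP φ q L2) ?_ ?_ (hle hg) (hle hh)
  · rw [Subgroup.closure_le]
    rintro g ⟨z, hz, hg⟩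
    refine X_norm hK hφ ?_ ?_ hg
    · have h1 : ∀ z ∈ LV, z ∈ rts := by decide
      exact h1 z hz
    · have h1 : ∀ z ∈ LV, ∀ w ∈ L2, w ∈ rts ∧ (z = w ∨ Bt z w L2) := by decide
      exact h1 z hz
  · rintro g ⟨x, hx, hg⟩ h ⟨y, hy, hh⟩
    have hxr : ∀ z ∈ LV, z ∈ rts := by decide
    by_cases hxy : x = y
    · subst hxy
      by_cases hx2 : x ∈ L2
      · rw [commutatorElement_def]
        exact X_le hx2 (mul_mem (mul_mem (mul_mem hg hh) (inv_mem hg)) (inv_mem hh))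
      · have h1 := hab x hx hx2 g hg h hh
        rw [commutatorElement_eq_one_iff_mul_comm.2 h1]
        exact one_mem _
    · have h1 : ∀ x ∈ LV, ∀ y ∈ LV, x ≠ y → Bt x y L2 := by decide
      exact comm_X hK hφ (hxr x hx) (hxr y hy) (h1 x hx y hy hxy) hg hh

omit hK hφ [Fintype K] in
/-- the linear form separating `![1, 1]` -/
def sep : (Fin 2 → ℤ) →+ ℤ where
  toFun z := 5 * z 0 - 4 * z 1
  map_zero' := by simp
  map_add' x y := by simp only [Pi.add_apply]; ring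

theorem inf11 {g : ↥(twistedD4 K q)} (hg : g ∈ X φ q ![1, 1]) (hg' : g ∈ SP φ q LW) : g = 1 := by
  obtain ⟨r, hr⟩ := CharP.exists K
  have : Fact r.Prime := ⟨CharP.char_is_prime K r⟩
  have : Finite CoxeterMatrix.G₂.Group := finiteW cs
  refine Nodes.Slope.sup_inf_sup (rgd' hK hφ r) sep ?_ ?_
  · exact RGD.le_Sup (S := {x | IsRoot cs isCartan x ∧ 0 < sep x})
      ⟨isRoot_of_mem (by decide), by show (0 : ℤ) < 5 * 1 - 4 * 1; norm_num⟩ hg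
  · refine RGD.Sup_mono (S := {z | z ∈ LW}) (S' := {x | IsRoot cs isCartan x ∧ sep x < 0}) (fun w hw => ?_) hg'
    have h1 : ∀ w ∈ LW, w ∈ rts ∧ 5 * w 0 - 4 * w 1 < 0 := by decide
    exact ⟨isRoot_of_mem (h1 w hw).1, (h1 w hw).2⟩

omit hK hφ [Fintype K] in
theorem cZ_mul {F : Type*} [Field F] : (wS 1 : Matrix.SpecialLinearGroup (Fin 2) F) * cZ = up (-1) := by
  apply Subtype.ext
  rw [Matrix.SpecialLinearGroup.coe_mul, coe_wS one_ne_zero, up_coe]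
  show (!![0, 1; -(1 : F)⁻¹, 0] : Matrix (Fin 2) (Fin 2) F) * !![0, -1; 1, -1] = _
  rw [Matrix.mul_fin_two]
  ext i j
  fin_cases i <;> fin_cases j <;> simp

omit hK hφ [Fintype K] in
theorem cZ_cube {F : Type*} [Field F] : (cZ : Matrix.SpecialLinearGroup (Fin 2) F) * cZ * cZ = 1 := by
  apply Subtype.ext
  rw [Matrix.SpecialLinearGroup.coe_mul, Matrix.SpecialLinearGroup.coe_mul, Matrix.SpecialLinearGroup.coe_one]
  show (!![0, -1; 1, -1] : Matrix (Fin 2) (Fin 2) F) * !![0, -1; 1, -1] * !![0, -1; 1, -1] = _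
  rw [Matrix.mul_fin_two, Matrix.mul_fin_two, Matrix.one_fin_two]
  ext i j
  fin_cases i <;> fin_cases j <;> simp

omit hK hφ [Fintype K] in
theorem wS_sq {F : Type*} [Field F] : (wS 1 : Matrix.SpecialLinearGroup (Fin 2) F) * wS 1 = hS (-1) := by
  apply Subtype.ext
  rw [Matrix.SpecialLinearGroup.coe_mul, coe_wS one_ne_zero, coe_hS (neg_ne_zero.2 one_ne_zero), Matrix.mul_fin_two]
  ext i j
  fin_cases i <;> fin_cases j <;> simp

/-- `Φ₀ (-1)` inverts the short root group -/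
theorem inv01 {f : ↥(twistedD4 K q)} (hf : f ∈ X φ q ![0, 1]) :
    (n hφ 0 * n hφ 0) * f * (n hφ 0 * n hφ 0)⁻¹ = f⁻¹ := by
  have h1 : n hφ 0 * n hφ 0 = PhiD hφ hK 0 (hS (-1)) := by
    rw [← PhiD_wS hφ hK, ← map_mul, wS_sq]
  have hm : (-1 : KD φ 0) ≠ 0 := neg_ne_zero.2 one_ne_zero
  rw [← sr1_eq] at hf
  obtain ⟨c, rfl⟩ := (mem_X hφ hK 1 f).1 hf
  rw [h1, act_up hK hφ (PhiD_hS hφ hK 0 _ hm)]
  have h2 : chD hφ hK 1 (PhiD hφ hK 0 (hS (-1))) = -1 := by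
    apply Subtype.ext
    rw [ch01 hφ hK _ hm]
    show ((-1 : K))⁻¹ = -1
    rw [inv_neg, inv_one]
  rw [h2, neg_one_mul, ← map_inv, up_inv']

theorem cj_n {e : ↥(twistedD4 K q)} (he : e ∈ X φ q ![1, 1]) :
    (n hφ 0)⁻¹ * ((n hφ 0)⁻¹ * e * n hφ 0) * n hφ 0 = e⁻¹ := by
  have h1 := n_inv hK hφ (x := ![1, 1]) (by decide) he
  have e3 : rep cs isCartan (cs.simple 0) ![1, 1] = ![0, 1] := by rw [rep0]; decide
  rw [e3] at h1
  obtain ⟨f, hf⟩ : ∃ f, f = (n hφ 0)⁻¹ * e * n hφ 0 := ⟨_, rfl⟩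
  rw [← hf] at h1 ⊢
  have h2 := inv01 hK hφ h1
  have h3 : e = n hφ 0 * f * (n hφ 0)⁻¹ := by rw [hf]; group
  rw [h3]
  obtain ⟨t, ht⟩ : ∃ t, t = n hφ 0 := ⟨_, rfl⟩
  rw [← ht] at h2 ⊢
  have h4 : (t * t) * f⁻¹ * (t * t)⁻¹ = f := by
    calc (t * t) * f⁻¹ * (t * t)⁻¹ = ((t * t) * f * (t * t)⁻¹)⁻¹ := by
          simp only [mul_inv_rev, inv_inv, mul_assoc]
      _ = f := by rw [h2, inv_inv]
  calc t⁻¹ * f * t = t * ((t * t)⁻¹ * f * (t * t)) * t⁻¹ := by group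
    _ = t * ((t * t)⁻¹ * ((t * t) * f⁻¹ * (t * t)⁻¹) * (t * t)) * t⁻¹ := by rw [h4]
    _ = (t * f * t⁻¹)⁻¹ := by group

/-- the automorphism -/
noncomputable abbrev xx (τ : K ≃+* K) : MulAut ↥(twistedD4 K q) := MulAut.conj (PhiD hφ hK 0 cZ) * st q τ

theorem xx_apply (τ : K ≃+* K) (y : ↥(twistedD4 K q)) :
    xx hK hφ τ y = PhiD hφ hK 0 cZ * st q τ y * (PhiD hφ hK 0 cZ)⁻¹ := by
  rw [MulAut.mul_apply, MulAut.conj_apply]

theorem xx_three (hq : IsPrimePow q) {τ : K ≃+* K} (hτ : τ ^ 3 = 1) (y : ↥(twistedD4 K q)) :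
    xx hK hφ τ (xx hK hφ τ (xx hK hφ τ y)) = y := by
  have h1 := st_Phi_zero hK hφ hq hτ (cZ : Matrix.SpecialLinearGroup (Fin 2) (KD φ 0))
  have h2 : PhiD hφ hK 0 cZ * PhiD hφ hK 0 cZ * PhiD hφ hK 0 cZ = 1 := by
    rw [← map_mul, ← map_mul, cZ_cube, map_one]
  obtain ⟨a, ha⟩ : ∃ a, a = PhiD hφ hK 0 cZ := ⟨_, rfl⟩
  have h4 : ∀ z, st q τ (a * z * a⁻¹) = a * st q τ z * a⁻¹ := by
    intro z
    rw [ha, map_mul, map_mul, map_inv, h1]
  have hx : ∀ z, xx hK hφ τ z = a * st q τ z * a⁻¹ := fun z => by rw [ha]; exact xx_apply hK hφ τ z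
  rw [← ha] at h2
  rw [hx, hx, hx, h4, h4, h4, st_three hK hφ hτ]
  calc a * (a * (a * y * a⁻¹) * a⁻¹) * a⁻¹ = (a * a * a) * y * (a * a * a)⁻¹ := by group
    _ = y := by rw [h2]; group

theorem cZ_factor : PhiD hφ hK 0 cZ = (n hφ 0)⁻¹ * PhiD hφ hK 0 (up (-1)) := by
  rw [← cZ_mul, map_mul, PhiD_wS, inv_mul_cancel_left]

/-- `x` preserves `X₁₂ X₁₃ X₂₃` -/
theorem fix_L2 (hq : IsPrimePow q) {τ : K ≃+* K} (hτ : τ ^ 3 = 1) : Fix (xx hK hφ τ) (SP φ q L2) := by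
  have hs : ∀ y ∈ SP φ q L2, st q τ y ∈ SP φ q L2 := by
    intro y hy
    have h1 : Fix (st q τ) (SP φ q L2) := fix_Sup fun z hz => fixX_st hK hφ τ (by
      have h2 : ∀ w ∈ L2, w ∈ rts := by decide
      exact isRoot_of_mem (h2 z hz))
    exact (h1 y).2 hy
  have hf : ∀ y ∈ SP φ q L2, xx hK hφ τ y ∈ SP φ q L2 := by
    intro y hy
    rw [xx_apply, cZ_factor]
    have hu : PhiD hφ hK 0 (up (-1)) ∈ X φ q ![1, 0] := by
      rw [← sr0_eq]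
      exact (mem_X hφ hK 0 _).2 ⟨_, rfl⟩
    have h1 := n_inv_SP hK hφ (S := L2) (S' := L2) (by decide) (conj10 hK hφ hu (hs y hy))
    rw [mul_inv_rev, inv_inv]
    have e : (n hφ 0)⁻¹ * (PhiD hφ hK 0 (up (-1)) * st q τ y * (PhiD hφ hK 0 (up (-1)))⁻¹) * n hφ 0 =
        (n hφ 0)⁻¹ * PhiD hφ hK 0 (up (-1)) * st q τ y * ((PhiD hφ hK 0 (up (-1)))⁻¹ * n hφ 0) := by group
    rw [← e]
    exact h1
  intro y
  constructor
  · intro h
    have h1 := hf _ (hf _ h)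
    rwa [xx_three hK hφ hq hτ] at h1
  · exact hf y

/-- **Fixed points in the unipotent radical.** -/
theorem fthree (hq : IsPrimePow q) (h3 : q % 3 ≠ 0) {τ : K ≃+* K} (hτ : τ ^ 3 = 1) (hτ1 : τ ≠ 1) :
    ∃ v ∈ VJ cs isCartan (X φ q) {0}, (MulAut.conj (PhiD hφ hK 0 cZ) * st q τ) v = v ∧
      v ∉ RGD.Sup (X φ q) {z | z = ![1, 2] ∨ z = ![1, 3] ∨ z = ![2, 3]} := by
  obtain ⟨r, hr⟩ := CharP.exists K
  have : Fact r.Prime := ⟨CharP.char_is_prime K r⟩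
  have : Finite CoxeterMatrix.G₂.Group := finiteW cs
  have hr3 : r ≠ 3 := by
    rintro rfl
    obtain ⟨n, hn0, hn⟩ := H27.Exc.exists_pow (r := 3) three_pos hq hK
    have : 3 ∣ q := by rw [hn]; exact dvd_pow_self 3 hn0.ne'
    omega
  have hset : ({z | z = ![1, 2] ∨ z = ![1, 3] ∨ z = ![2, 3]} : Set (Fin 2 → ℤ)) = {z | z ∈ L2} := by
    ext z
    simp [L2]
  rw [hset]
  have hL2V : SP φ q L2 ≤ VJ cs isCartan (X φ q) {0} := by
    refine RGD.Sup_le fun w hw => ?_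
    have h1 : ∀ w ∈ L2, w ∈ rts ∧ 0 ≤ w 0 ∧ 0 ≤ w 1 ∧ 0 < w 1 := by decide
    obtain ⟨h2, h3, h4, h5⟩ := h1 w hw
    exact X_le_V hK hφ 0 h2 (fun k => by fin_cases k <;> assumption) ⟨1, by decide, h5⟩
  have h11V : X φ q ![1, 1] ≤ VJ cs isCartan (X φ q) {0} :=
    X_le_V hK hφ 0 (by decide) (fun k => by fin_cases k <;> decide) ⟨1, by decide, by decide⟩
  -- an element of the short root group moved by the field automorphism
  obtain ⟨c, hc⟩ := exists_rs_ne hK hφ hτ1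
  obtain ⟨b, hb⟩ : ∃ b, b = n hφ 0 * PhiD hφ hK 1 (up c) * (n hφ 0)⁻¹ := ⟨_, rfl⟩
  have e3 : rep cs isCartan (cs.simple 0) ![0, 1] = ![1, 1] := by rw [rep0]; decide
  have hb11 : b ∈ X φ q ![1, 1] := by
    have h1 := n_conj hK hφ 0 (x := ![0, 1]) (by decide) (a := PhiD hφ hK 1 (up c)) (by
      rw [← sr1_eq]
      exact (mem_X hφ hK 1 _).2 ⟨_, rfl⟩)
    rw [e3] at h1
    rw [hb]
    exact h1
  have hbs : st q τ b ≠ b := by
    intro h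
    rw [hb, map_mul, map_mul, map_inv, st_n, st_up] at h
    have h1 : PhiD hφ hK 1 (up (rs hφ τ 1 c)) = PhiD hφ hK 1 (up c) := mul_left_cancel (mul_right_cancel h)
    exact hc ((coordD hφ hK 1).inj h1)
  have hs11 : ∀ y ∈ X φ q ![1, 1], st q τ y ∈ X φ q ![1, 1] := fun y hy =>
    (fixX_st hK hφ τ (isRoot_of_mem (by decide)) y).2 hy
  obtain ⟨a, ha⟩ : ∃ a, a = PhiD hφ hK 0 cZ := ⟨_, rfl⟩
  obtain ⟨u, hu⟩ : ∃ u, u = PhiD hφ hK 0 (up (-1)) := ⟨_, rfl⟩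
  obtain ⟨m, hm⟩ : ∃ m, m = n hφ 0 := ⟨_, rfl⟩
  have hau : a = m⁻¹ * u := by rw [ha, hm, hu]; exact cZ_factor hK hφ
  have hu10 : u ∈ X φ q ![1, 0] := by
    rw [hu, ← sr0_eq]
    exact (mem_X hφ hK 0 _).2 ⟨_, rfl⟩
  have hsa : st q τ a = a := by rw [ha]; exact st_Phi_zero hK hφ hq hτ _
  obtain ⟨x, hx⟩ : ∃ x, x = xx hK hφ τ := ⟨_, rfl⟩
  have hxa : ∀ y, x y = a * st q τ y * a⁻¹ := fun y => by rw [hx, ha]; exact xx_apply hK hφ τ y
  have hx3 : ∀ y, x (x (x y)) = y := fun y => by rw [hx]; exact xx_three hK hφ hq hτ y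
  have hxL2 : Fix x (SP φ q L2) := by rw [hx]; exact fix_L2 hK hφ hq hτ
  have hxV : ∀ y ∈ VJ cs isCartan (X φ q) {0}, x y ∈ VJ cs isCartan (X φ q) {0} := by
    intro y hy
    rw [hxa]
    exact (Subgroup.mem_normalizer_iff.1 (L_le_normalizer_V hK hφ 0 (show a ∈ (PhiD hφ hK 0).range from
      ⟨cZ, ha.symm⟩)) _).1 ((fixV_st hK hφ τ 0 y).2 hy)
  obtain ⟨e1, he1⟩ : ∃ e1, e1 = st q τ b := ⟨_, rfl⟩
  obtain ⟨e2, he2⟩ : ∃ e2, e2 = st q τ (st q τ b) := ⟨_, rfl⟩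
  have he1' : e1 ∈ X φ q ![1, 1] := by rw [he1]; exact hs11 _ hb11
  have he2' : e2 ∈ X φ q ![1, 1] := by rw [he2]; exact hs11 _ (hs11 _ hb11)
  have hcu : ∀ e ∈ X φ q ![1, 1], a * e * a⁻¹ = m⁻¹ * e * m := by
    intro e he
    have h1 := comm_sr0_11 hK hφ hu10 he
    rw [hau]
    calc m⁻¹ * u * e * (m⁻¹ * u)⁻¹ = m⁻¹ * (u * e) * u⁻¹ * m := by group
      _ = m⁻¹ * e * m := by rw [h1]; group
  have hm01 : ∀ e ∈ X φ q ![1, 1], m⁻¹ * e * m ∈ X φ q ![0, 1] := by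
    intro e he
    have h1 := n_inv hK hφ (x := ![1, 1]) (by decide) he
    have e3 : rep cs isCartan (cs.simple 0) ![1, 1] = ![0, 1] := by rw [rep0]; decide
    rw [e3] at h1
    rw [hm]
    exact h1
  have hxb : x b = m⁻¹ * e1 * m := by rw [hxa, ← he1]; exact hcu e1 he1'
  obtain ⟨g01, hg01⟩ : ∃ g, g = m⁻¹ * e2 * m := ⟨_, rfl⟩
  have hg01' : g01 ∈ X φ q ![0, 1] := by rw [hg01]; exact hm01 e2 he2'
  have hxxb : x (x b) = (m⁻¹ * ⁅u, g01⁆ * m) * e2⁻¹ := by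
    have h1 : x (x b) = a * (a * e2 * a⁻¹) * a⁻¹ := by
      rw [hxa, hxa, map_mul, map_mul, map_inv, hsa, ← he2]
    rw [h1, hcu e2 he2', ← hg01]
    have h2 := cj_n hK hφ he2'
    rw [← hm] at h2
    rw [← h2, ← hg01, hau, commutatorElement_def]
    group
  have hw1 : m⁻¹ * ⁅u, g01⁆ * m ∈ SP φ q LW := by
    rw [hm]
    exact n_inv_SP hK hφ (S := L1) (S' := LW) (by decide) (comm_X hK hφ (x := ![1, 0]) (y := ![0, 1]) (S := L1)
      (by decide) (by decide) (by decide) hu10 hg01')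
  obtain ⟨w, hw⟩ : ∃ w, w = m⁻¹ * e1 * m * (m⁻¹ * ⁅u, g01⁆ * m) := ⟨_, rfl⟩
  have hwW : w ∈ SP φ q LW := by
    rw [hw]
    exact mul_mem (X_le (by decide) (hm01 e1 he1')) hw1
  obtain ⟨N, hN⟩ : ∃ N, N = b * (x b * x (x b)) := ⟨_, rfl⟩
  have hNe : N = b * w * e2⁻¹ := by
    rw [hN, hxxb, hxb, hw]
    group
  have hNot : N ∉ SP φ q L2 := by
    intro h
    have h1 : N ∈ SP φ q LW := SP_mono (by decide) h
    have h2 : e2 * w * e2⁻¹ ∈ SP φ q LW := conj_SP hK hφ (x := ![1, 1]) (by decide) (by decide) he2' hwW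
    have h3 : b * e2⁻¹ ∈ SP φ q LW := by
      have e : b * e2⁻¹ = N * (e2 * w * e2⁻¹)⁻¹ := by rw [hNe]; group
      rw [e]
      exact mul_mem h1 (inv_mem h2)
    have h4 := inf11 hK hφ (mul_mem hb11 (inv_mem he2')) h3
    have h5 : b = st q τ (st q τ b) := by rw [← he2]; exact mul_inv_eq_one.1 h4
    apply hbs
    conv_lhs => rw [h5]
    exact st_three hK hφ hτ b
  have hbV := h11V hb11
  have hxbV := hxV _ hbV
  have hxxbV := hxV _ hxbV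
  have hNV : N ∈ VJ cs isCartan (X φ q) {0} := by
    rw [hN]
    exact mul_mem hbV (mul_mem hxbV hxxbV)
  -- the coset of `N`
  obtain ⟨k, hk⟩ : ∃ k, k = N⁻¹ * x N := ⟨_, rfl⟩
  have hkL : k ∈ SP φ q L2 := by
    have e : k = ⁅(x b * x (x b))⁻¹, b⁻¹⁆ := by
      rw [hk, hN, map_mul, map_mul, hx3, commutatorElement_def]
      group
    rw [e]
    exact commV hK hφ (inv_mem (mul_mem hxbV hxxbV)) (inv_mem hbV)
  have hk3 : k * x k * x (x k) = 1 := by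
    rw [hk]
    simp only [map_mul, map_inv, hx3]
    group
  have hidx : ¬ 3 ∣ (⊥ : Subgroup ↥(twistedD4 K q)).relIndex (SP φ q L2) := by
    rw [Subgroup.relIndex_bot_left]
    have hp : IsPGroup r ↥(SP φ q L2) := (rgd' hK hφ r).isPGroup_Upos.to_le (hL2V.trans (VJ_le_U {0}))
    obtain ⟨j, hj⟩ := IsPGroup.iff_card.1 hp
    rw [hj]
    intro h
    exact hr3 ((Nat.prime_dvd_prime_iff_eq Nat.prime_three Fact.out).1 (Nat.prime_three.dvd_of_dvd_pow h)).symm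
  have hbot : Fix x (⊥ : Subgroup ↥(twistedD4 K q)) := fun y => by
    rw [Subgroup.mem_bot, Subgroup.mem_bot, map_eq_one_iff x x.injective]
  obtain ⟨g, hg, hgk⟩ := H866.D4Wf.exists_coset_fix hxL2 hbot hidx hkL hx3 hk3
  rw [Subgroup.mem_bot] at hgk
  refine ⟨N * g, mul_mem hNV (hL2V hg), ?_, fun h => hNot ?_⟩
  · have h1 : x (N * g) = N * g := by
      have h2 : k * x g = g := by
        have : g⁻¹ * (k * x g) = 1 := by rw [← mul_assoc]; exact hgk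
        exact (inv_mul_eq_one.1 this).symm
      rw [map_mul]
      have h3 : x N = N * k := by rw [hk, mul_inv_cancel_left]
      rw [h3, mul_assoc, h2]
    rw [hx] at h1
    exact h1
  · have e : N = N * g * g⁻¹ := by group
    rw [e]
    exact mul_mem h (inv_mem hg)

end Cfsg.Agent.H442.TD.FThree
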